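import Cfsg.Agent.Lib.JT.Klein
import Cfsg.Agent.Lib.Comput.PermFacts
import Cfsg.Agent.Lib.Recog.Fixity
import Cfsg.Agent.Lib.Fgs.AutBound
import Cfsg.Agent.Lib.PGroup.MaxClass2

/-!
# Sylow subgroups of odd order of a group of Hall–Janko type
-/

set_option autoImplicit false
set_option maxRecDepth 100000
set_option Elab.async false
set_option linter.unusedSectionVars false

namespace CfsgLib.JT

open CfsgLib.Comput Subgroup MulAction

/-- An element of order `3`. -/
def s3 : ℕ := 0x6080c080c080c08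
/-- An element of order `5`. -/
def a5 : ℕ := 0x30b080b
/-- An element of order `5`. -/
def b5 : ℕ := 0x302080b080c0807
/-- An element of order `7`. -/
def d7 : ℕ := 0x7080b

/-- Conjugation table of a Sylow `3`-subgroup. -/
def T3 : List (List ℕ × ℕ × List ℕ) := [([s3], 0x605080c08, [11]),
  ([s3, s3], 0x106080c08, [11]),
  ([11], 0, [11]),
  ([11, s3], 0x6080b080b080b, [11]),
  ([11, s3, s3], 0x1080c080b080b, [11]),
  ([11, 11], 5, [11]),
  ([11, 11, s3], 0x80c06080b080c, [11]),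
  ([11, 11, s3, s3], 0x80c080b01080c, [11]),
  ([9], 0, [9]),
  ([9, s3], 0x80b080c06, [11]),
  ([9, s3, s3], 0x106080c080b, [11]),
  ([9, 11], 0x6080c080c080c08, [11]),
  ([9, 11, s3], 0x6080b080b08, [11]),
  ([9, 11, s3, s3], 0x1080c080b080c, [11]),
  ([9, 11, 11], 0x1080b080b080c08, [11]),
  ([9, 11, 11, s3], 0x80c06080b080b, [11]),
  ([9, 11, 11, s3, s3], 0x80c080b0108, [11]),
  ([9, 9], 8, [9]),
  ([9, 9, s3], 0x80b080b01, [11]),
  ([9, 9, s3, s3], 0x106080c080c, [11]),
  ([9, 9, 11], 0x80b01080b080c08, [11]),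
  ([9, 9, 11, s3], 0x6080b080b080c, [11]),
  ([9, 9, 11, s3, s3], 0x1080c080b08, [11]),
  ([9, 9, 11, 11], 0x1080b080c06080c08, [11]),
  ([9, 9, 11, 11, s3], 0x80c06080b08, [11]),
  ([9, 9, 11, 11, s3, s3], 0x80c080b01080b, [11])]

/-- Conjugation table of a Sylow `5`-subgroup. -/
def T5 : List (List ℕ × ℕ × List ℕ) := [([b5], 0, [b5]),
  ([b5, b5], 0, [b5, b5]),
  ([b5, b5, b5], 0, [b5, b5, b5]),
  ([b5, b5, b5, b5], 0, [b5, b5, b5, b5]),
  ([a5], 0, [a5]),
  ([a5, b5], 6, [b5, b5, b5, b5]),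
  ([a5, b5, b5], 0x80c0608, [b5, b5, b5, b5]),
  ([a5, b5, b5, b5], 0x80c0608, [a5]),
  ([a5, b5, b5, b5, b5], 0x5080b08, [a5, a5]),
  ([a5, a5], 0, [a5, a5]),
  ([a5, a5, b5], 0x80c0608, [a5, a5]),
  ([a5, a5, b5, b5], 6, [b5, b5, b5]),
  ([a5, a5, b5, b5, b5], 0x5080b08, [a5, a5, a5, a5]),
  ([a5, a5, b5, b5, b5, b5], 0x80c0608, [b5, b5, b5]),
  ([a5, a5, a5], 0, [a5, a5, a5]),
  ([a5, a5, a5, b5], 0x80c0608, [b5, b5]),
  ([a5, a5, a5, b5, b5], 0x5080b08, [a5]),
  ([a5, a5, a5, b5, b5, b5], 6, [b5, b5]),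
  ([a5, a5, a5, b5, b5, b5, b5], 0x80c0608, [a5, a5, a5]),
  ([a5, a5, a5, a5], 0, [a5, a5, a5, a5]),
  ([a5, a5, a5, a5, b5], 0x5080b08, [a5, a5, a5]),
  ([a5, a5, a5, a5, b5, b5], 0x80c0608, [a5, a5, a5, a5]),
  ([a5, a5, a5, a5, b5, b5, b5], 0x80c0608, [b5]),
  ([a5, a5, a5, a5, b5, b5, b5, b5], 6, [b5])]

/-- The non-trivial elements of a Sylow `7`-subgroup. -/
def T7 : List (List ℕ) := [[d7], [d7, d7], [d7, d7, d7], [d7, d7, d7, d7], [d7, d7, d7, d7, d7],
  [d7, d7, d7, d7, d7, d7]]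

/-- Three sets of points moved off themselves by `b5`. -/
def c5 : List ℕ := [0x21400204500010009700886c00d4c49e6c39150b5508c61009024084640c7d877fd97eeebfbffff,
  0x5a1b5cd90b0ecd5568f82712b52a23609386caf02ae021cb74799b5a93f18060802481114040000,
  0x4a4a122a4f122aa000750814a01180100402004801718248284242108020218000200000000000]

theorem en3 : enumChk sT xT [9, 11, s3] (T3.map Prod.fst) = true := by decide +kernel
theorem en5 : enumChk sT xT [a5, b5] (T5.map Prod.fst) = true := by decide +kernel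
theorem en7 : enumChk sT xT [d7] T7 = true := by decide +kernel
theorem cj3 : conjChk sT xT T3 = true := by decide +kernel
theorem cj5 : conjChk sT xT T5 = true := by decide +kernel

theorem fact3 : Nat.factorization 604800 3 = 3 := by decide +kernel
theorem fact5 : Nat.factorization 604800 5 = 2 := by decide +kernel
theorem fact7 : Nat.factorization 604800 7 = 1 := by decide +kernel

instance prime5 : Fact (Nat.Prime 5) := ⟨by norm_num⟩
instance prime7 : Fact (Nat.Prime 7) := ⟨by norm_num⟩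

variable {G : Type*} [Group G] [Finite G] {Q : Subgroup G} {z : G} {q : Fin 5 → G} {u n y r : G}
  [MulAction G (Fin 100)] [MulAction G (Fin 315)]

theorem card_dvd_cent {P : Subgroup G} {c : G} (hc : c ∈ centralizer (P : Set G)) :
    Nat.card P ∣ Nat.card (centralizer ({c} : Set G)) :=
  card_dvd_of_le fun x hx => mem_centralizer_singleton_iff.2 (hc x hx)

theorem smul_mem_fixedBy' {Ω : Type*} [MulAction G Ω] {x y c : G} (h : c * x * c⁻¹ = y) {a : Ω}
    (ha : a ∈ fixedBy Ω x) : y • c • a = c • a := by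
  rw [← h, mul_smul, inv_smul_smul, mul_smul, mem_fixedBy.1 ha]

theorem not_fix {Ω : Type*} [MulAction G Ω] {g : ℕ → G} {n : ℕ} {pt : ℕ → Ω} {st : ℕ → ℕ → ℕ}
    (M : SM g n pt st) {w S i : ℕ} (h : Nat.beq (Nat.land (act st w S) S) 0 = true) (hi : i < n)
    (hS : S.testBit i = true) : ev g w • pt i ≠ pt i := fun e => by
  have h1 := sem_land M (act st w S) S
  rw [show act st w S &&& S = 0 from Nat.eq_of_beq_eq_true h, sem_zero, M.sem_act] at h1
  exact h1.ge ⟨⟨_, ⟨i, hi, hS, rfl⟩, e⟩, i, hi, hS, rfl⟩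

namespace Hyp

theorem syl3 (H : Hyp Q z q u n y r) : ∃ P : Sylow 3 G, P = cl (gl z q u n y r) [9, 11, s3] :=
  ⟨Sylow.ofCard _ (by
    rw [H.cardG, fact3]; exact card_eq_of_enum H.wm H.sm en3 1 5 (by decide +kernel)), rfl⟩

theorem syl5 (H : Hyp Q z q u n y r) : ∃ P : Sylow 5 G, P = cl (gl z q u n y r) [a5, b5] :=
  ⟨Sylow.ofCard _ (by
    rw [H.cardG, fact5]; exact card_eq_of_enum H.wm H.sm en5 0 9 (by decide +kernel)), rfl⟩

theorem syl7 (H : Hyp Q z q u n y r) : ∃ P : Sylow 7 G, P = cl (gl z q u n y r) [d7] :=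
  ⟨Sylow.ofCard _ (by
    rw [H.cardG, fact7]; exact card_eq_of_enum H.wm H.sm en7 1 7 (by decide +kernel)), rfl⟩

theorem conj3 (H : Hyp Q z q u n y r) {c : G} (hc : orderOf c = 3) : IsConj c y ∨ IsConj c r := by
  obtain ⟨P, hP⟩ := H.syl3
  obtain ⟨x, h1, h2, h3⟩ := exists_conj_vals P hc
  obtain ⟨t, ht, h4⟩ := conjChk_sound H.wm cj3 (enum_eq H.wm en3 ▸ hP ▸ h1) h2
  rcases (by decide +kernel : ∀ t ∈ T3, t.2.2 = [9] ∨ t.2.2 = [11]) t ht with e | e <;>
    simp only [e, evL_one, evE] at h4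
  exacts [Or.inl (h3.trans h4), Or.inr (h3.trans h4)]

theorem fix_y (H : Hyp Q z q u n y r) : (fixedBy (Fin 100) y).ncard = 10 := by
  simpa only [evL_one, evE] using ncard_fixedBy H.sm [9] (k := 10) (by decide +kernel)

theorem fix_r (H : Hyp Q z q u n y r) : (fixedBy (Fin 100) r).ncard = 4 := by
  simpa only [evL_one, evE] using ncard_fixedBy H.sm [11] (k := 4) (by decide +kernel)

theorem fix3 (H : Hyp Q z q u n y r) {c : G} (hc : orderOf c = 3) :
    (fixedBy (Fin 100) c).ncard = 10 ∨ (fixedBy (Fin 100) c).ncard = 4 :=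
  (H.conj3 hc).imp (fun h => (ncard_fixedBy_conj h).trans H.fix_y) fun h => (ncard_fixedBy_conj h).trans H.fix_r

theorem fix7 (H : Hyp Q z q u n y r) {c : G} (hc : orderOf c = 7) : (fixedBy (Fin 100) c).ncard = 2 := by
  obtain ⟨P, hP⟩ := H.syl7
  obtain ⟨x, h1, h2, h3⟩ := exists_conj_vals P hc
  obtain ⟨l, hl, rfl⟩ := (enum_eq H.wm en7).le (hP.le h1)
  rcases List.mem_cons.1 hl with rfl | hl
  · exact absurd rfl h2
  · exact (ncard_fixedBy_conj h3).trans (ncard_fixedBy H.sm l (allL_sound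
      (p := fun l => Nat.beq (pop 100 (fixS sN l 100)) 2) (by decide +kernel) l hl))

theorem card_stab (H : Hyp Q z q u n y r) (a : Fin 100) : Nat.card (stabilizer G a) = 6048 := by
  have : IsPretransitive G (Fin 100) := (isPretransitive_iff_base (finPt 100 0)).2 fun x => by
    obtain ⟨k, hk⟩ := H.sm.mem_orbit_of_grow (K := ⊤) (ws := [3, 4, 5, 7, 8, 9, 11]) le_top (a := 0) (r := 9)
      (by norm_num) (l := List.range 100) (by decide +kernel) x (List.mem_range.2 x.2)
    exact ⟨k, hk.trans (finPt_coe x)⟩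
  exact card_stabilizer_eq a H.cardG

theorem free5 (H : Hyp Q z q u n y r) {P : Subgroup G} (hP : IsPGroup 5 P) {c : G}
    (hc : c ∈ centralizer (P : Set G)) : Nat.card P ∣ (fixedBy (Fin 100) c).ncard := by
  refine Recog.card_dvd_ncard_of_semiregular P _ (Set.toFinite _)
    (fun h hh a ha => smul_mem_fixedBy (hc h hh) ha) fun h hh a _ e => ?_
  obtain ⟨k, hk⟩ := hP ⟨h, hh⟩
  have h1 : orderOf h ∣ 6048 := H.card_stab a ▸ (stabilizer G a).orderOf_dvd_natCard e
  exact orderOf_eq_one_iff.1 (Nat.eq_one_of_dvd_coprimes ((by norm_num : Nat.Coprime 5 6048).pow_left k)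
    (orderOf_dvd_of_pow_eq_one (congrArg Subtype.val hk)) h1)

theorem free5' (H : Hyp Q z q u n y r) {c x : G} (hc : orderOf c = 5) (h : c * x = x * c) :
    5 ∣ (fixedBy (Fin 100) x).ncard := by
  have := H.free5 (P := zpowers c) (c := x) (IsPGroup.of_card (n := 1) (by rw [Nat.card_zpowers, hc, pow_one]))
    (by rintro _ ⟨k, rfl⟩; exact Commute.zpow_left h k)
  rwa [Nat.card_zpowers, hc] at this

theorem not37 (H : Hyp Q z q u n y r) {c d : G} (hc : orderOf c = 3) (hd : orderOf d = 7) :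
    d * c ≠ c * d := fun h => by
  have h1 := Recog.card_dvd_ncard_of_semiregular (zpowers d) (fixedBy (Fin 100) c \ fixedBy (Fin 100) d)
    (Set.toFinite _) (by
      rintro _ ⟨k, rfl⟩ a ha
      refine ⟨smul_mem_fixedBy (Commute.zpow_left h k) ha.1, fun e => ha.2 ?_⟩
      simpa using smul_mem_fixedBy (x := (d ^ k)⁻¹) ((Commute.refl d).zpow_left k).inv_left e) (by
      intro x hx a ha e
      by_contra h1
      have : Fact (Nat.card (zpowers d)).Prime := ⟨by rw [Nat.card_zpowers, hd]; norm_num⟩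
      have h2 := mem_zpowers_of_prime_card (G := zpowers d) rfl (g := ⟨x, hx⟩) (g' := ⟨d, mem_zpowers d⟩)
        fun e => h1 (congrArg Subtype.val e)
      obtain ⟨k, hk⟩ := h2
      exact ha.2 ((show x ^ k = d from congrArg Subtype.val hk) ▸ fixedBy_subset_fixedBy_zpow _ x k e))
  have h2 := Set.ncard_inter_add_ncard_sdiff_eq_ncard (fixedBy (Fin 100) c) (fixedBy (Fin 100) d)
  have h3 := Set.ncard_le_ncard (Set.inter_subset_right (s := fixedBy (Fin 100) c) (t := fixedBy (Fin 100) d))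
  rw [Nat.card_zpowers, hd] at h1
  rw [H.fix7 hd] at h3
  have := H.fix3 hc
  omega

theorem primes (H : Hyp Q z q u n y r) {c : G} (h : (orderOf c).Prime) :
    orderOf c = 2 ∨ orderOf c = 3 ∨ orderOf c = 5 ∨ orderOf c = 7 := by
  have h1 : orderOf c ∣ 2 ^ 7 * 3 ^ 3 * 5 ^ 2 * 7 := (orderOf_dvd_natCard c).trans H.cardG.dvd
  have k : ∀ {p k : ℕ}, p.Prime → orderOf c ∣ p ^ k → orderOf c = p := fun hp e =>
    (Nat.prime_dvd_prime_iff_eq h hp).1 (h.dvd_of_dvd_pow e)
  simp only [h.dvd_mul, or_assoc] at h1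
  exact h1.imp (k Nat.prime_two) (Or.imp (k Nat.prime_three) (Or.imp (k prime5.out)
    (Nat.prime_dvd_prime_iff_eq h prime7.out).1))

theorem sylow7 (H : Hyp Q z q u n y r) (D : Sylow 7 G) : centralizer ((D : Subgroup G) : Set G) = D ∧
    Nat.card (normalizer ((D : Subgroup G) : Set G)) = 42 ∧
    ¬ IsMulCommutative (normalizer ((D : Subgroup G) : Set G)) := by
  have hD : Nat.card D = 7 := by rw [D.card_eq_multiplicity, H.cardG, fact7]; rfl
  have := isCyclic_of_prime_card hD
  obtain ⟨d, hd⟩ := exists_prime_orderOf_dvd_card' (G := D) 7 hD.symm.dvd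
  rw [← orderOf_coe] at hd
  have hC : centralizer ((D : Subgroup G) : Set G) = D := by
    refine le_antisymm (centralizer_le_sylow D fun c hc hp => ?_) (le_centralizer _)
    have h1 := hD ▸ card_dvd_cent hc
    rcases H.primes hp with e | e | e | e
    · have := H.card_cent e; omega
    · exact absurd (hc d d.2) (H.not37 e hd)
    · have := H.fix7 hd ▸ H.free5' e (hc d d.2).symm; omega
    · exact e
  have h1 := card_normalizer_dvd (D : Subgroup G)
  have h2 := card_normalizer_sylow D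
  have h3 : Nat.card (Sylow 7 G) % 7 = 1 := card_sylow_modEq_one 7 G
  rw [hC, IsCyclic.card_mulAut, hD, Nat.totient_prime prime7.out] at h1
  rw [H.cardG, ← Sylow.coe_coe] at h2
  have hN : Nat.card (normalizer ((D : Subgroup G) : Set G)) = 42 := by
    have := Nat.le_of_dvd (by norm_num) h1
    generalize Nat.card (normalizer ((D : Subgroup G) : Set G)) = a at *
    interval_cases a <;> omega
  refine ⟨hC, hN, fun h => ?_⟩
  have := card_le_of_le (((le_centralizer (normalizer ((D : Subgroup G) : Set G))).trans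
    (centralizer_le le_normalizer)).trans hC.le)
  omega

theorem sylow5 (H : Hyp Q z q u n y r) (P : Sylow 5 G) : centralizer ((P : Subgroup G) : Set G) = P ∧
    Nat.card P = 25 ∧ Nat.card (normalizer ((P : Subgroup G) : Set G)) = 300 ∧
    ∃ X Y : Subgroup G, Nat.card X = 5 ∧ Nat.card Y = 5 ∧
      (∀ g : G, X.map (MulAut.conj g).toMonoidHom ≠ Y) ∧ ∀ W : Subgroup G, Nat.card W = 5 →
        ∃ g : G, W.map (MulAut.conj g).toMonoidHom = X ∨ W.map (MulAut.conj g).toMonoidHom = Y := by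
  have hP : Nat.card P = 5 ^ 2 := by rw [P.card_eq_multiplicity, H.cardG, fact5]
  have := IsPGroup.isMulCommutative_of_card_eq_prime_sq hP
  obtain ⟨R, hR⟩ := H.syl5
  have k := H.wm.allHold (l := [(List.replicate 5 a5, []), (List.replicate 5 b5, []),
    (List.replicate 3 0x5080b08, [])]) (by decide +kernel)
  simp only [AllHold, List.forall_mem_cons, Eqn.Holds, evL_replicate, evL_nil] at k
  have k' : ∀ w ∈ [a5, b5, 0x5080b08], ev (gl z q u n y r) w ≠ 1 := by
    simp only [List.forall_mem_cons, ← evL_one]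
    refine ⟨?_, ?_, ?_, by simp⟩ <;> exact ne_of_chk H.sm (l' := []) 0 (by decide +kernel)
  simp only [List.forall_mem_cons] at k'
  have oa := orderOf_eq_prime k.1 k'.1
  have ob := orderOf_eq_prime k.2.1 k'.2.1
  have key : ∀ c, orderOf c = 5 → ∃ g, g * c * g⁻¹ ∈ zpowers (ev (gl z q u n y r) a5) ∨
      g * c * g⁻¹ ∈ zpowers (ev (gl z q u n y r) b5) := fun c hc => by
    obtain ⟨x, h1, h2, h3⟩ := exists_conj_vals R hc
    obtain ⟨t, ht, h4⟩ := conjChk_sound H.wm cj5 ((enum_eq H.wm en5).le (hR.le h1)) h2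
    obtain ⟨g, hg⟩ := isConj_iff.1 (h3.trans h4)
    refine ⟨g, ((by decide +kernel : ∀ t ∈ T5, t.2.2 = List.replicate t.2.2.length a5 ∨
      t.2.2 = List.replicate t.2.2.length b5) t ht).imp (fun e => ?_) fun e => ?_⟩ <;>
    · rw [hg, e, evL_replicate]; exact npow_mem_zpowers _ _
  have hC : centralizer ((P : Subgroup G) : Set G) = P := by
    refine le_antisymm (centralizer_le_sylow P fun c hc hp => ?_) (le_centralizer _)
    have h1 := hP ▸ card_dvd_cent hc
    have h2 := hP ▸ H.free5 P.isPGroup' hc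
    rcases H.primes hp with e | e | e | e
    · have := H.card_cent e; omega
    · have := H.fix3 e; omega
    · exact e
    · have := H.fix7 e; omega
  refine ⟨hC, hP, ?_, _, _, (Nat.card_zpowers _).trans oa, (Nat.card_zpowers _).trans ob,
    fun g e => ?_, fun W hW => ?_⟩
  · have h1 := card_normalizer_dvd (P : Subgroup G)
    have h2 := card_normalizer_sylow P
    have h3 : Nat.card (Sylow 5 G) % 5 = 1 := card_sylow_modEq_one 5 G
    have h4 : 3 ∣ Nat.card (normalizer (R : Set G)) := orderOf_eq_prime k.2.2.1 k'.2.2.1 ▸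
      orderOf_dvd_natCard _ (by
        rw [← Sylow.coe_coe, hR, enum_eq H.wm en5]
        exact mem_normalizer_of_chk H.wm (by decide +kernel))
    rw [Nat.eq_of_mul_eq_mul_right Nat.card_pos ((card_normalizer_sylow R).trans h2.symm)] at h4
    have h5 := Fgs.card_mulAut_dvd_of_elementary (V := P) (p := 5) (fun x => by
      obtain ⟨g, hg⟩ := Invol.exists_conj_mem_sylow R P
      obtain ⟨l, hl, e⟩ := (enum_eq H.wm en5).le (hR.le ((hg x).1 x.2))
      have := H.wm.holds (allL_sound (p := fun l => eqChk sT xT (l ++ (l ++ (l ++ (l ++ l))), []))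
        (by decide +kernel) l hl)
      simp only [Eqn.Holds, evL_append, e, evL_nil] at this
      exact Subtype.ext (by
        calc _ = g⁻¹ * (g * x * g⁻¹ * (g * x * g⁻¹ * (g * x * g⁻¹ * (g * x * g⁻¹ * (g * x * g⁻¹))))) * g := by
              simp only [coe_mul, pow_succ, pow_zero, one_mul]; group
          _ = _ := by rw [this]; simp)) hP
    obtain ⟨a, ha⟩ := Nat.Coprime.mul_dvd_of_dvd_of_dvd (by norm_num) h4
      (hP ▸ card_dvd_of_le (le_normalizer (H := (P : Subgroup G))))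
    have h6 := h1.trans (mul_dvd_mul_left _ h5)
    rw [hC, hP] at h6
    rw [H.cardG] at h2
    rw [Sylow.coe_coe, ha] at h6 ⊢
    rw [ha] at h2
    have h7 : a ∣ 160 := Nat.dvd_of_mul_dvd_mul_left (by norm_num : 0 < 3 * 5 ^ 2) h6
    have := Nat.le_of_dvd (by norm_num) h7
    interval_cases a <;> omega
  · obtain ⟨_, ⟨j, rfl⟩, e1⟩ := e.ge (mem_zpowers _)
    have h1 := smul_mem_fixedBy' e1 (fixedBy_subset_fixedBy_zpow _ _ j
      (H.sx.smul_pt (a := 1) (b := 1) (by norm_num) (by norm_num) (by decide +kernel)))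
    generalize g • finPt 315 1 = i at h1
    obtain ⟨S, h2, h3⟩ := (by decide +kernel : ∀ i : Fin 315, ∃ S ∈ c5, S.testBit i = true) i
    exact not_fix H.sx (allL_sound (p := fun S => Nat.beq (Nat.land (act sX b5 S) S) 0)
      (by decide +kernel) S h2) i.2 h3 (by rwa [finPt_coe])
  · obtain ⟨c, hc⟩ := exists_prime_orderOf_dvd_card' (G := W) 5 hW.symm.dvd
    rw [← orderOf_coe] at hc
    obtain ⟨g, hg⟩ := key c hc
    have h1 : W = zpowers (c : G) :=
      (eq_of_le_of_card_ge (zpowers_le.2 c.2) (by rw [Nat.card_zpowers, hc, hW])).symm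
    have h2 : ∀ x : G, orderOf x = 5 → g * c * g⁻¹ ∈ zpowers x →
        W.map (MulAut.conj g).toMonoidHom = zpowers x := fun x hx h =>
      eq_of_le_of_card_ge (by rw [h1, MonoidHom.map_zpowers]; exact zpowers_le.2 h)
        (by rw [Nat.card_zpowers, hx, card_map_of_injective (MulAut.conj g).injective, hW])
    exact ⟨g, hg.imp (h2 _ oa) (h2 _ ob)⟩

theorem sylow3 (H : Hyp Q z q u n y r) (P : Sylow 3 G) : Cfsg.IsExtraspecial 3 (P : Subgroup G) ∧
    Nat.card P = 27 ∧ Nat.card (normalizer ((P : Subgroup G) : Set G)) = 216 ∧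
    ∃ a b : G, orderOf a = 3 ∧ orderOf b = 3 ∧ ¬ IsConj a b ∧
      ∀ c : G, orderOf c = 3 → IsConj c a ∨ IsConj c b := by
  have hP : Nat.card P = 3 ^ 3 := by rw [P.card_eq_multiplicity, H.cardG, fact3]
  obtain ⟨R, hR⟩ := H.syl3
  obtain ⟨g, hg⟩ := Invol.exists_conj_mem_sylow P R
  have m1 := (hg r).1 (hR.ge (by simpa only [evE] using ev_mem_cl (gl z q u n y r) (w := 11) (by simp)))
  have m2 := (hg (ev (gl z q u n y r) s3)).1 (hR.ge (ev_mem_cl _ (by simp)))
  have oy : orderOf y = 3 := orderOf_eq_prime (by rw [pow_succ, sq, H.fr.y3]) fun e => by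
    simpa [e] using H.fix_y
  have or : orderOf r = 3 := orderOf_eq_prime (by rw [pow_succ, sq, H.r3]) fun e => by
    simpa [e] using H.fix_r
  have or' : orderOf (g * r * g⁻¹) = 3 := (MulAut.conj g).orderOf_eq r ▸ or
  have hE := PGroup.isExtraspecial_of_card_eq_cube hP fun _ =>
    ne_of_chk H.sm (l := [11, s3]) (l' := [s3, 11]) 0 (by decide +kernel) (by
      simpa [evL_two, evE] using congrArg Subtype.val (mul_comm' (⟨_, m1⟩ : (P : Subgroup G)) ⟨_, m2⟩))
  refine ⟨hE, hP, ?_, y, r, oy, or, fun h => ?_, fun c => H.conj3⟩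
  · have hC : centralizer ((P : Subgroup G) : Set G) ≤ P := by
      refine centralizer_le_sylow P fun c hc hp => ?_
      have h1 := hP ▸ card_dvd_cent hc
      rcases H.primes hp with e | e | e | e
      · have := H.card_cent e; omega
      · exact e
      · have := H.free5' e (hc _ m1).symm
        rw [← ncard_fixedBy_conj (isConj_iff.2 ⟨g, rfl⟩), H.fix_r] at this
        omega
      · exact absurd (hc _ m1).symm (H.not37 or' e)
    have h1 := card_normalizer_dvd (P : Subgroup G)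
    have h2 := card_normalizer_sylow P
    have h3 : Nat.card (Sylow 3 G) % 3 = 1 := card_sylow_modEq_one 3 G
    have h4 : 2 ^ 2 ∣ Nat.card (normalizer (R : Set G)) := orderOf_eq_prime_pow (p := 2) (n := 1)
      (x := ev (gl z q u n y r) 0x106080c08)
      (fun e => ne_of_chk H.sm (l := List.replicate 2 0x106080c08) (l' := []) 6 (by decide +kernel)
        ((evL_replicate _ _ _).trans e))
      ((evL_replicate _ _ 4).symm.trans (H.wm.holds (e := (List.replicate 4 0x106080c08, []))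
        (by decide +kernel))) ▸ orderOf_dvd_natCard _ (by
        rw [← Sylow.coe_coe, hR, enum_eq H.wm en3]
        exact mem_normalizer_of_chk H.wm (by decide +kernel))
    rw [Nat.eq_of_mul_eq_mul_right Nat.card_pos ((card_normalizer_sylow R).trans h2.symm)] at h4
    have h5 := Fgs.card_mulAut_dvd (r := 2) hP (by
      have := card_mul_index (center (P : Subgroup G))
      rw [hE.2, hP, ← hE.1.2.1] at this
      omega)
    obtain ⟨a, ha⟩ := Nat.Coprime.mul_dvd_of_dvd_of_dvd (by norm_num) h4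
      (hP ▸ card_dvd_of_le (le_normalizer (H := (P : Subgroup G))))
    have h6 := h1.trans (mul_dvd_mul (hP ▸ card_dvd_of_le hC) h5)
    rw [H.cardG] at h2
    rw [Sylow.coe_coe, ha] at h6 ⊢
    rw [ha] at h2
    have h7 : a ∣ 108 := Nat.dvd_of_mul_dvd_mul_left (by norm_num : 0 < 2 ^ 2 * 3 ^ 3) h6
    have := Nat.le_of_dvd (by norm_num) h7
    interval_cases a <;> omega
  · have := ncard_fixedBy_conj (Ω := Fin 100) h
    rw [H.fix_y, H.fix_r] at this
    omega

end Hyp

end CfsgLib.JT
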